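import Mathlib
import Cfsg.Prelude.Def_Classical
import Cfsg.Agent.H352.EP.SpDefs
import Cfsg.Agent.ClassicalGeometry.SympBasic
import Cfsg.Agent.LieClassical.SympCenter

/-!
# `PSp m F ≃* Sp m` for `|F| = 2`
-/

set_option autoImplicit false

open scoped Matrix
open Matrix Module

namespace Cfsg.Agent.H352.EP

open Cfsg.Agent.ClassicalGeometry.SympBasic

variable {m : ℕ}

/-- base change of symplectic matrices -/
theorem map_mem_symp {R S : Type*} [CommRing R] [CommRing S] (f : R →+* S)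
    {A : Matrix (Fin m ⊕ Fin m) (Fin m ⊕ Fin m) R} (hA : A ∈ Matrix.symplecticGroup (Fin m) R) :
    A.map f ∈ Matrix.symplecticGroup (Fin m) S := by
  rw [SymplecticGroup.mem_iff] at hA ⊢
  have hJ : (Matrix.J (Fin m) R).map f = Matrix.J (Fin m) S := by
    ext i j
    rcases i with i | i <;> rcases j with j | j <;> simp [Matrix.J, Matrix.one_apply, apply_ite f]
  rw [← hJ, ← Matrix.transpose_map, ← Matrix.map_mul, ← Matrix.map_mul, hA]

/-- change of the field -/
def sympMap {R S : Type*} [CommRing R] [CommRing S] (σ : R ≃+* S) :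
    Matrix.symplecticGroup (Fin m) R ≃* Matrix.symplecticGroup (Fin m) S where
  toFun A := ⟨A.1.map σ, map_mem_symp (σ : R →+* S) A.2⟩
  invFun B := ⟨B.1.map σ.symm, map_mem_symp (σ.symm : S →+* R) B.2⟩
  left_inv A := by
    apply Subtype.ext
    show (A.1.map σ).map σ.symm = A.1
    ext i j
    simp
  right_inv B := by
    apply Subtype.ext
    show (B.1.map σ.symm).map σ = B.1
    ext i j
    simp
  map_mul' A B := by
    apply Subtype.ext
    show (A.1 * B.1).map (σ : R →+* S) = A.1.map (σ : R →+* S) * B.1.map (σ : R →+* S)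
    exact Matrix.map_mul

/-- the coordinates -/
def cw' (m : ℕ) : (Fin m ⊕ Fin m → ZMod 2) ≃ₗ[ZMod 2] Vv m :=
  LinearEquiv.sumArrowLequivProdArrow (Fin m) (Fin m) (ZMod 2) (ZMod 2)

theorem form_cw (u v : Fin m ⊕ Fin m → ZMod 2) : form (cw' m u) (cw' m v) = Cfsg.sympForm m (ZMod 2) u v := by
  rw [sympForm_eq_sum, form_eq_sum]
  refine Finset.sum_congr rfl fun i _ => ?_
  show u (Sum.inl i) * v (Sum.inr i) + u (Sum.inr i) * v (Sum.inl i) = _
  rw [CharTwo.sub_eq_add]
  ring

/-- symplectic matrices as linear automorphisms -/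
def matE (A : Matrix.symplecticGroup (Fin m) (ZMod 2)) : Vv m ≃ₗ[ZMod 2] Vv m where
  toFun v := cw' m (A.1 *ᵥ (cw' m).symm v)
  invFun v := cw' m (A⁻¹.1 *ᵥ (cw' m).symm v)
  map_add' u v := by rw [map_add, Matrix.mulVec_add, map_add]
  map_smul' c v := by rw [map_smul, Matrix.mulVec_smul, map_smul, RingHom.id_apply]
  left_inv v := by
    beta_reduce
    rw [LinearEquiv.symm_apply_apply, Matrix.mulVec_mulVec, ← Submonoid.coe_mul, inv_mul_cancel, Submonoid.coe_one,
      Matrix.one_mulVec, LinearEquiv.apply_symm_apply]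
  right_inv v := by
    beta_reduce
    rw [LinearEquiv.symm_apply_apply, Matrix.mulVec_mulVec, ← Submonoid.coe_mul, mul_inv_cancel, Submonoid.coe_one,
      Matrix.one_mulVec, LinearEquiv.apply_symm_apply]

theorem matE_apply (A : Matrix.symplecticGroup (Fin m) (ZMod 2)) (v : Vv m) :
    matE A v = cw' m (A.1 *ᵥ (cw' m).symm v) := rfl

theorem matE_mem (A : Matrix.symplecticGroup (Fin m) (ZMod 2)) : matE A ∈ Sp m := by
  intro u v
  obtain ⟨u, rfl⟩ := (cw' m).surjective u
  obtain ⟨v, rfl⟩ := (cw' m).surjective v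
  rw [matE_apply, matE_apply, LinearEquiv.symm_apply_apply, LinearEquiv.symm_apply_apply, form_cw, form_cw]
  exact sympForm_mulVec A.2 u v

/-- symplectic matrices as isometries -/
def toSp (m : ℕ) : Matrix.symplecticGroup (Fin m) (ZMod 2) →* Sp m where
  toFun A := ⟨matE A, matE_mem A⟩
  map_one' := by
    refine Subtype.ext (LinearEquiv.ext fun v => ?_)
    show cw' m ((1 : Matrix (Fin m ⊕ Fin m) (Fin m ⊕ Fin m) (ZMod 2)) *ᵥ (cw' m).symm v) = v
    rw [Matrix.one_mulVec, LinearEquiv.apply_symm_apply]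
  map_mul' A B := by
    refine Subtype.ext (LinearEquiv.ext fun v => ?_)
    show cw' m ((A.1 * B.1) *ᵥ (cw' m).symm v) = cw' m (A.1 *ᵥ (cw' m).symm (cw' m (B.1 *ᵥ (cw' m).symm v)))
    rw [LinearEquiv.symm_apply_apply, Matrix.mulVec_mulVec]

theorem toSp_smul (A : Matrix.symplecticGroup (Fin m) (ZMod 2)) (v : Fin m ⊕ Fin m → ZMod 2) :
    toSp m A • cw' m v = cw' m (A.1 *ᵥ v) := by
  show cw' m (A.1 *ᵥ (cw' m).symm (cw' m v)) = _
  rw [LinearEquiv.symm_apply_apply]

theorem toSp_injective : Function.Injective (toSp m) := by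
  intro A B h
  apply Subtype.ext
  apply Matrix.toLin'.injective
  apply LinearMap.ext
  intro v
  rw [Matrix.toLin'_apply, Matrix.toLin'_apply]
  apply (cw' m).injective
  rw [← toSp_smul, ← toSp_smul, h]

theorem toSp_surjective : Function.Surjective (toSp m) := by
  intro g
  set f : (Fin m ⊕ Fin m → ZMod 2) →ₗ[ZMod 2] (Fin m ⊕ Fin m → ZMod 2) :=
    ((cw' m).trans ((g : Vv m ≃ₗ[ZMod 2] Vv m).trans (cw' m).symm)).toLinearMap with hf
  have hfv : ∀ v, cw' m (LinearMap.toMatrix' f *ᵥ v) = g • cw' m v := by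
    intro v
    rw [LinearMap.toMatrix'_mulVec]
    exact (cw' m).apply_symm_apply _
  refine ⟨⟨LinearMap.toMatrix' f, mem_symplecticGroup_iff.2 fun u v => ?_⟩, ?_⟩
  · rw [← form_cw, ← form_cw, hfv, hfv, form_smul]
  · refine Subtype.ext (LinearEquiv.ext fun v => ?_)
    obtain ⟨v, rfl⟩ := (cw' m).surjective v
    exact (toSp_smul _ v).trans (hfv v)

/-- **`PSp m F ≃* Sp m`** for the field with two elements -/
theorem nonempty_psp_equiv {F : Type*} [Field F] [Fintype F] (hF : Fintype.card F = 2) (hm : 1 ≤ m) :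
    Nonempty (Sp m ≃* Cfsg.PSp m F) := by
  have hc : CharP F 2 := by
    have h2 : Fact (Nat.Prime 2) := ⟨Nat.prime_two⟩
    exact charP_of_card_eq_prime hF
  let σ : ZMod 2 ≃+* F := ZMod.ringEquiv F hF
  have hcen : Subgroup.center (Matrix.symplecticGroup (Fin m) F) = ⊥ := by
    have h1 := Cfsg.Agent.LieClassical.SympCenter.card_center (F := F) hm
    rw [hF] at h1
    exact Subgroup.eq_bot_of_card_eq _ (by rw [h1]; rfl)
  let e1 : Matrix.symplecticGroup (Fin m) (ZMod 2) ≃* Sp m := MulEquiv.ofBijective (toSp m) ⟨toSp_injective, toSp_surjective⟩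
  let e2 : Matrix.symplecticGroup (Fin m) F ≃* Cfsg.PSp m F :=
    ((QuotientGroup.quotientMulEquivOfEq hcen).trans QuotientGroup.quotientBot).symm
  exact ⟨(e1.symm.trans (sympMap σ)).trans e2⟩

end Cfsg.Agent.H352.EP
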