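import Cfsg.Agent.Nodes.WittInst
import Cfsg.Agent.H352.EP.SpDefs

/-!
# The group `Om n = Ω⁺(θ₀)` inside the symplectic group over the field with two elements

`θ₀ (a, b) = a · b`; `back : Sp n →* (V ≃ V)` the passage to the coordinates of `plusForm n (ZMod 2)`,
`Om n = back⁻¹ (E (plusForm n (ZMod 2)))`, `fw : E Q →* Om n` the inverse; the root elements are the elements
`lel (1 + E_ij)`, `qel (E_ij + E_ji)` of `SpDefs`.
-/

set_option autoImplicit false

open scoped Pointwise Matrix
open Matrix Module QuadraticMap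

namespace Cfsg.Agent.H352.EP

open Cfsg.Agent.LieClassical.OrthCore Cfsg.Agent.LieClassical.OrthForms

variable {n : ℕ}

/-- the coordinates -/
def cv (n : ℕ) : (Fin n ⊕ Fin n → ZMod 2) ≃ₗ[ZMod 2] Vv n :=
  LinearEquiv.sumArrowLequivProdArrow (Fin n) (Fin n) (ZMod 2) (ZMod 2)

theorem cv_fst (v : Fin n ⊕ Fin n → ZMod 2) (i : Fin n) : (cv n v).1 i = v (Sum.inl i) := rfl

theorem cv_snd (v : Fin n ⊕ Fin n → ZMod 2) (i : Fin n) : (cv n v).2 i = v (Sum.inr i) := rfl

/-- the quadratic form -/
def th0 (v : Vv n) : ZMod 2 := v.1 ⬝ᵥ v.2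

theorem th0_cv (v : Fin n ⊕ Fin n → ZMod 2) : th0 (cv n v) = plusForm n (ZMod 2) v := by
  rw [coe_plusForm, Cfsg.quadFormPlus]
  rfl

theorem th0_add (u v : Vv n) : th0 (u + v) = th0 u + th0 v + form u v := by
  simp only [th0, form, Prod.fst_add, Prod.snd_add, add_dotProduct, dotProduct_add]
  rw [dotProduct_comm u.2 v.1]
  ring

theorem form_cv (u v : Fin n ⊕ Fin n → ZMod 2) : form (cv n u) (cv n v) = polar (plusForm n (ZMod 2)) u v := by
  have h := th0_add (cv n u) (cv n v)
  rw [← map_add, th0_cv, th0_cv, th0_cv] at h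
  rw [polar, h]
  ring

/-- the passage to the coordinates of `plusForm` -/
def back (n : ℕ) : Sp n →* ((Fin n ⊕ Fin n → ZMod 2) ≃ₗ[ZMod 2] (Fin n ⊕ Fin n → ZMod 2)) where
  toFun g := (cv n).trans ((g : Vv n ≃ₗ[ZMod 2] Vv n).trans (cv n).symm)
  map_one' := by
    ext1 v
    exact (cv n).symm_apply_apply v
  map_mul' g h := by
    ext1 v
    show (cv n).symm ((g : Vv n ≃ₗ[ZMod 2] Vv n) ((h : Vv n ≃ₗ[ZMod 2] Vv n) (cv n v))) =
      (cv n).symm ((g : Vv n ≃ₗ[ZMod 2] Vv n) (cv n ((cv n).symm ((h : Vv n ≃ₗ[ZMod 2] Vv n) (cv n v)))))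
    rw [LinearEquiv.apply_symm_apply]

theorem cv_back (g : Sp n) (v : Fin n ⊕ Fin n → ZMod 2) : cv n (back n g v) = g • cv n v :=
  (cv n).apply_symm_apply _

theorem back_mem_O {g : Sp n} : back n g ∈ O (plusForm n (ZMod 2)) ↔ ∀ v : Vv n, th0 (g • v) = th0 v := by
  rw [mem_O]
  constructor
  · intro h v
    obtain ⟨v, rfl⟩ := (cv n).surjective v
    rw [← cv_back, th0_cv, th0_cv, h]
  · intro h v
    rw [← th0_cv, cv_back, h, th0_cv]

/-- the isometries as elements of `Sp n` -/
def fwd (g : (Fin n ⊕ Fin n → ZMod 2) ≃ₗ[ZMod 2] (Fin n ⊕ Fin n → ZMod 2)) (hg : g ∈ O (plusForm n (ZMod 2))) :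
    Sp n :=
  ⟨(cv n).symm.trans (g.trans (cv n)), fun u v => by
    obtain ⟨u, rfl⟩ := (cv n).surjective u
    obtain ⟨v, rfl⟩ := (cv n).surjective v
    show form (cv n (g ((cv n).symm (cv n u)))) (cv n (g ((cv n).symm (cv n v)))) = _
    rw [LinearEquiv.symm_apply_apply, LinearEquiv.symm_apply_apply, form_cv, form_cv, polar_map hg]⟩

theorem fwd_smul {g : (Fin n ⊕ Fin n → ZMod 2) ≃ₗ[ZMod 2] (Fin n ⊕ Fin n → ZMod 2)}
    (hg : g ∈ O (plusForm n (ZMod 2))) (v : Fin n ⊕ Fin n → ZMod 2) : fwd g hg • cv n v = cv n (g v) := by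
  show cv n (g ((cv n).symm (cv n v))) = _
  rw [LinearEquiv.symm_apply_apply]

theorem sp_ext {g h : Sp n} (H : ∀ v : Vv n, g • v = h • v) : g = h := Subtype.ext (LinearEquiv.ext H)

theorem back_fwd {g : (Fin n ⊕ Fin n → ZMod 2) ≃ₗ[ZMod 2] (Fin n ⊕ Fin n → ZMod 2)}
    (hg : g ∈ O (plusForm n (ZMod 2))) : back n (fwd g hg) = g := by
  ext1 v
  apply (cv n).injective
  rw [cv_back, fwd_smul]

theorem fwd_back {g : Sp n} (hg : back n g ∈ O (plusForm n (ZMod 2))) : fwd (back n g) hg = g := by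
  apply sp_ext
  intro v
  obtain ⟨v, rfl⟩ := (cv n).surjective v
  rw [fwd_smul, cv_back]

theorem back_injective : Function.Injective (back n) := by
  intro g h hgh
  apply sp_ext
  intro v
  obtain ⟨v, rfl⟩ := (cv n).surjective v
  rw [← cv_back, ← cv_back, hgh]

/-- `Ω⁺(θ₀)` -/
def Om (n : ℕ) : Subgroup (Sp n) := (E (plusForm n (ZMod 2))).comap (back n)

theorem mem_Om {g : Sp n} : g ∈ Om n ↔ back n g ∈ E (plusForm n (ZMod 2)) := Iff.rfl

/-- the isomorphism `E Q → Om n` -/
def fw (n : ℕ) : E (plusForm n (ZMod 2)) →* Om n where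
  toFun g := ⟨fwd g.1 (E_le_O g.2), by rw [mem_Om, back_fwd]; exact g.2⟩
  map_one' := by
    apply Subtype.ext
    apply back_injective
    show back n (fwd (1 : E (plusForm n (ZMod 2))).1 (E_le_O (1 : E (plusForm n (ZMod 2))).2)) = back n 1
    rw [map_one, back_fwd]
    rfl
  map_mul' g h := by
    apply Subtype.ext
    apply back_injective
    show back n (fwd (g * h).1 (E_le_O (g * h).2)) = back n (fwd g.1 (E_le_O g.2) * fwd h.1 (E_le_O h.2))
    rw [map_mul, back_fwd, back_fwd, back_fwd]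
    rfl

theorem fw_smul (g : E (plusForm n (ZMod 2))) (v : Fin n ⊕ Fin n → ZMod 2) :
    ((fw n g : Om n) : Sp n) • cv n v = cv n (g.1 v) := fwd_smul (E_le_O g.2) v

theorem back_fw (g : E (plusForm n (ZMod 2))) : back n (fw n g).1 = g.1 := back_fwd (E_le_O g.2)

theorem fw_surjective : Function.Surjective (fw n) := by
  intro g
  exact ⟨⟨back n g.1, g.2⟩, Subtype.ext (fwd_back (E_le_O g.2))⟩

theorem fw_injective : Function.Injective (fw n) := by
  intro g h hgh
  apply Subtype.ext
  rw [← back_fw, ← back_fw, hgh]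

/-! ### The root elements -/

/-- the basis vectors -/
def bv (a : Fin n × Bool) : Vv n := if a.2 then (Pi.single a.1 1, 0) else (0, Pi.single a.1 1)

open Cfsg.Agent.TitsThree.WBridge Cfsg.Agent.TitsThree.WittFrame Cfsg.Agent.TitsThree.WittWeyl
  Cfsg.Agent.Nodes.WittInst Cfsg.Agent.TitsThree.KSideO Cfsg.Agent.TitsThree.Siegel Cfsg.Agent.Nodes.WittAll

theorem cv_b (a : Fin n × Bool) : cv n ((toFrame (wplus n (ZMod 2))).b a) = bv a := by
  obtain ⟨i, s⟩ := a
  cases s
  · refine Prod.ext ?_ ?_ <;> funext j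
    · rw [cv_fst]
      simp [bv, wplus]
    · rw [cv_snd]
      simp [bv, wplus, Pi.single_apply]
  · refine Prod.ext ?_ ?_ <;> funext j
    · rw [cv_fst]
      simp [bv, wplus, Pi.single_apply]
    · rw [cv_snd]
      simp [bv, wplus]

/-- the root element -/
noncomputable def rel (a b : Fin n × Bool) : Om n :=
  fw n ⟨(toFrame (wplus n (ZMod 2))).X a b 1, X_mem _ _ _ _⟩

theorem rel_smul {a b : Fin n × Bool} (h : a.1 ≠ b.1) (v : Vv n) :
    ((rel a b : Om n) : Sp n) • v = v + form v (bv a) • bv b + form v (bv b) • bv a := by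
  obtain ⟨v, rfl⟩ := (cv n).surjective v
  rw [rel, fw_smul, X_apply _ h]
  have h1 : (toFrame (wplus n (ZMod 2))).sc b 1 = 1 := by
    rw [Frame.sc, Frame.η]
    have e1 : (HO (plusForm n (ZMod 2))).ε = 1 := rfl
    rw [e1, inv_one, one_mul, map_one, mul_one, ite_self]
    decide
  have e1 : (HO (plusForm n (ZMod 2))).ε = 1 := rfl
  rw [h1, e1, inv_one, one_mul, map_one, one_mul, mul_one, HO_h, HO_h, map_sub, map_add, map_smul, map_smul,
    cv_b, cv_b, ← form_cv, ← form_cv, cv_b, cv_b, sub_eq_add_neg]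
  congr 1
  have h2 : ∀ w : Vv n, -w = w := fun w => by
    apply neg_eq_of_add_eq_zero_left
    exact Prod.ext (vadd_self _) (vadd_self _)
  exact h2 _

theorem form_e (v : Vv n) (i : Fin n) : form v (bv (i, true)) = v.2 i := by
  simp [form, bv]

theorem form_f (v : Vv n) (i : Fin n) : form v (bv (i, false)) = v.1 i := by
  simp [form, bv]

theorem qel_eq_rel {i j : Fin n} (hij : i ≠ j) {s : Sym n}
    (hs : (s : Matrix (Fin n) (Fin n) (ZMod 2)) = Matrix.single i j 1 + Matrix.single j i 1) :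
    qel (Multiplicative.ofAdd s) = ((rel (i, true) (j, true) : Om n) : Sp n) := by
  apply sp_ext
  intro v
  rw [qel_smul, rel_smul (a := (i, true)) (b := (j, true)) hij, form_e, form_e]
  have h1 : ((Multiplicative.ofAdd s).toAdd : Matrix (Fin n) (Fin n) (ZMod 2)) *ᵥ v.2 =
      v.2 j • Pi.single i 1 + v.2 i • Pi.single j 1 := by
    show (s : Matrix (Fin n) (Fin n) (ZMod 2)) *ᵥ v.2 = _
    rw [hs, Matrix.add_mulVec, Matrix.single_mulVec, Matrix.single_mulVec]
    congr 1 <;> funext k <;> simp [Function.update_apply, Pi.single_apply]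
  rw [h1]
  refine Prod.ext ?_ ?_
  · simp only [bv, Prod.fst_add, Prod.smul_fst, if_true]
    abel
  · simp only [bv, Prod.snd_add, Prod.smul_snd, if_true, smul_zero, add_zero]

theorem lel_eq_rel {i j : Fin n} (hij : i ≠ j) {h : GL (Fin n) (ZMod 2)}
    (hh : (h : Matrix (Fin n) (Fin n) (ZMod 2)) = Matrix.transvection i j 1) :
    lel h = ((rel (i, true) (j, false) : Om n) : Sp n) := by
  apply sp_ext
  intro v
  rw [lel_smul, rel_smul (a := (i, true)) (b := (j, false)) hij, form_e, form_f]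
  have h0 : ((h⁻¹ : GL (Fin n) (ZMod 2)) : Matrix (Fin n) (Fin n) (ZMod 2)) = Matrix.transvection i j 1 := by
    have h1 : h * h = 1 := by
      apply Units.ext
      rw [Units.val_mul, hh, Matrix.transvection_mul_transvection_same _ _ hij]
      have : (1 + 1 : ZMod 2) = 0 := rfl
      rw [this, Matrix.transvection_zero]
      rfl
    rw [inv_eq_of_mul_eq_one_left h1, hh]
  rw [h0, hh, Matrix.transvection, Matrix.transpose_add, Matrix.transpose_one, Matrix.transpose_single,
    Matrix.add_mulVec, Matrix.add_mulVec, Matrix.one_mulVec, Matrix.one_mulVec, Matrix.single_mulVec,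
    Matrix.single_mulVec]
  refine Prod.ext ?_ ?_
  · funext k
    simp [bv, Function.update_apply, Pi.single_apply]
  · funext k
    simp [bv, Function.update_apply, Pi.single_apply]

theorem qel_mem_Om {i j : Fin n} (hij : i ≠ j) {s : Sym n}
    (hs : (s : Matrix (Fin n) (Fin n) (ZMod 2)) = Matrix.single i j 1 + Matrix.single j i 1) :
    qel (Multiplicative.ofAdd s) ∈ Om n := by
  rw [qel_eq_rel hij hs]
  exact (rel (i, true) (j, true)).2

theorem lel_mem_Om {i j : Fin n} (hij : i ≠ j) {h : GL (Fin n) (ZMod 2)}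
    (hh : (h : Matrix (Fin n) (Fin n) (ZMod 2)) = Matrix.transvection i j 1) : lel h ∈ Om n := by
  rw [lel_eq_rel hij hh]
  exact (rel (i, true) (j, false)).2

theorem wel_mem_Om {i j : Fin n} (hij : i ≠ j) : wel {i, j} ∈ Om n := by
  have h1 : ((i, true) : Fin n × Bool).1 ≠ ((j, true) : Fin n × Bool).1 := hij
  have h2 : ((j, false) : Fin n × Bool).1 ≠ ((i, false) : Fin n × Bool).1 := hij.symm
  have h3 : ((i, true) : Fin n × Bool).1 ≠ ((j, false) : Fin n × Bool).1 := hij
  have h4 : ((j, true) : Fin n × Bool).1 ≠ ((i, false) : Fin n × Bool).1 := hij.symm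
  have key : wel {i, j} = ((rel (i, true) (j, true) * rel (j, false) (i, false) * rel (i, true) (j, true) *
      (rel (i, true) (j, false) * rel (j, true) (i, false) * rel (i, true) (j, false)) : Om n) : Sp n) := by
    apply sp_ext
    intro v
    have hz : ∀ a b : ZMod 2, a + (b + a) = b := by decide
    have hz' : ∀ a b : ZMod 2, a + (a + b) = b := by decide
    simp only [Subgroup.coe_mul, mul_smul, rel_smul h1, rel_smul h2, rel_smul h3, rel_smul h4, form_e, form_f]
    rw [wel_smul]
    refine Prod.ext ?_ ?_ <;> funext k <;> by_cases hk : k = i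
    · subst hk
      simp [bv, hij, hij.symm]
      generalize v.1 k = a
      generalize v.1 j = b
      generalize v.2 k = c
      generalize v.2 j = d
      revert a b c d
      decide
    · by_cases hk' : k = j
      · subst hk'
        simp [bv, hij, hij.symm]
        generalize v.1 k = a
        generalize v.1 i = b
        generalize v.2 k = c
        generalize v.2 i = d
        revert a b c d
        decide
      · simp [bv, hk, hk']
    · subst hk
      simp [bv, hij, hij.symm]
      generalize v.1 k = a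
      generalize v.1 j = b
      generalize v.2 k = c
      generalize v.2 j = d
      revert a b c d
      decide
    · by_cases hk' : k = j
      · subst hk'
        simp [bv, hij, hij.symm]
        generalize v.1 k = a
        generalize v.1 i = b
        generalize v.2 k = c
        generalize v.2 i = d
        revert a b c d
        decide
      · simp [bv, hk, hk']
  rw [key]
  exact Subtype.prop _

end Cfsg.Agent.H352.EP
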