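import Mathlib
import Cfsg.Prelude.Def_Characters
import Cfsg.Agent.H352.EP.SpDefs

/-!
# Four linear characters of the Siegel radical and the multiplicities `cw t χ`

`Wt = {z, l, p, m}`: the trivial weight, the weight of rank one, the hyperbolic and the elliptic weight of
rank two. `ellM t s` is the exponent of the linear character of the Siegel radical, `Hst t` the subgroup of
the Levi subgroup `GL` fixing the linear forms involved, `cw t χ` the multiplicity of the extension of the
weight (trivial on `Hst t`) in the class function `χ`, `mw t χ` the dimension of the weight space.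
-/

set_option autoImplicit false

open scoped Matrix
open Matrix Module Cfsg

namespace Cfsg.Agent.H352.EP

/-- the four types of weights -/
inductive Wt : Type
  | z | l | p | m
  deriving DecidableEq

variable {k : ℕ}

/-- square matrices -/
abbrev Mx (n : ℕ) : Type := Matrix (Fin n) (Fin n) (ZMod 2)

/-- the exponent of the linear character -/
def ellM : Wt → Mx (k + 2) → ZMod 2
  | .z, _ => 0
  | .l, s => s 0 0
  | .p, s => s 0 1 + s 1 1
  | .m, s => s 0 0 + s 0 1 + s 1 1

theorem ellM_add (t : Wt) (a b : Mx (k + 2)) : ellM t (a + b) = ellM t a + ellM t b := by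
  cases t <;> simp only [ellM, Matrix.add_apply] <;> ring

/-- the sign `(-1)^c` -/
noncomputable def sg (c : ZMod 2) : ℂ := if c = 0 then 1 else -1

theorem sg_zero : sg 0 = 1 := if_pos rfl

theorem sg_add (a b : ZMod 2) : sg (a + b) = sg a * sg b := by
  have h : ∀ a b : ZMod 2, (a + b = 0 ↔ (a = 0 ↔ b = 0)) := by decide
  unfold sg
  by_cases ha : a = 0 <;> by_cases hb : b = 0 <;> simp [h, ha, hb]

/-- the linear character of the additive group of symmetric matrices -/
noncomputable def lamw (t : Wt) (s : Sym (k + 2)) : ℂ := sg (ellM t (s : Mx (k + 2)))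

/-- the indices of the linear forms occurring in the weight -/
def fixIdx : Wt → Finset (Fin (k + 2))
  | .z => ∅
  | .l => {0}
  | _ => {0, 1}

/-- the subgroup of the Levi subgroup fixing the linear forms `x_j`, `j ∈ fixIdx t` -/
def Hst (t : Wt) : Subgroup (GL (Fin (k + 2)) (ZMod 2)) where
  carrier := {h | ∀ j ∈ fixIdx (k := k) t, ∀ v : Fin (k + 2) → ZMod 2, ((h : Mx (k + 2)) *ᵥ v) j = v j}
  one_mem' := by
    intro j _ v
    rw [Units.val_one, Matrix.one_mulVec]
  mul_mem' := by
    intro a b ha hb j hj v
    rw [Units.val_mul, ← Matrix.mulVec_mulVec, ha j hj, hb j hj]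
  inv_mem' := by
    intro a ha j hj v
    rw [← ha j hj (((a⁻¹ : GL (Fin (k + 2)) (ZMod 2)) : Mx (k + 2)) *ᵥ v), Matrix.mulVec_mulVec,
      ← Units.val_mul, mul_inv_cancel, Units.val_one, Matrix.one_mulVec]

/-- the radical of the weight -/
def Rad (t : Wt) : Submodule (ZMod 2) (Fin (k + 2) → ZMod 2) where
  carrier := {a | ∀ j ∈ fixIdx (k := k) t, a j = 0}
  zero_mem' := fun _ _ => rfl
  add_mem' := by
    intro a b ha hb j hj
    rw [Pi.add_apply, ha j hj, hb j hj, add_zero]
  smul_mem' := by
    intro c a ha j hj
    rw [Pi.smul_apply, ha j hj, smul_zero]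

noncomputable instance : Fintype (Sym (k + 2)) := Fintype.ofFinite _

noncomputable instance (t : Wt) : Fintype (Hst (k := k) t) := Fintype.ofFinite _

noncomputable instance (n : ℕ) : Fintype (Sp n) := Fintype.ofFinite _

/-- the function `h ↦ trace of h on the weight space`, for the class function `χ` -/
noncomputable def yw (t : Wt) (χ : Sp (k + 2) → ℂ) (h : Hst (k := k) t) : ℂ :=
  (Fintype.card (Sym (k + 2)) : ℂ)⁻¹ *
    ∑ s : Sym (k + 2), lamw t s * χ (qel (Multiplicative.ofAdd s) * lel (h : GL (Fin (k + 2)) (ZMod 2)))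

/-- the dimension of the weight space -/
noncomputable def mw (t : Wt) (χ : Sp (k + 2) → ℂ) : ℂ := yw t χ 1

/-- the multiplicity -/
noncomputable def cw (t : Wt) (χ : Sp (k + 2) → ℂ) : ℂ :=
  (Fintype.card (Hst (k := k) t) : ℂ)⁻¹ * ∑ h : Hst (k := k) t, yw t χ h

/-- the permutation character on maximal isotropic subspaces -/
noncomputable def piL (n : ℕ) (g : Sp n) : ℂ := (Nat.card (MulAction.fixedBy (Lag n) g) : ℂ)

end Cfsg.Agent.H352.EP
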